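import Cfsg.Agent.Lib.Ord6.Alt

/-! Almost simple groups with socle `A₅` or `A₆` without elements of order greater than six. -/

set_option autoImplicit false
set_option linter.unusedSectionVars false

namespace CfsgLib.Ord6

open Cfsg Subgroup Equiv Equiv.Perm

universe u

/-- `σ` swaps the two four-subgroups of the centralizer of `z6` -/
def Sw (σ : MulAut A6) : Prop :=
  σ z6 = z6 ∧ (σ a6 = b6 ∨ σ a6 = b6 * z6) ∧ (σ b6 = a6 ∨ σ b6 = a6 * z6)

theorem z6_sq : z6 * z6 = 1 := by decide +kernel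

theorem Sw.mul {σ τ ρ : MulAut A6} (h1 : Sw σ) (h2 : Sw τ) (h3 : Sw ρ) : Sw (σ * τ * ρ) := by
  obtain ⟨a1, a2 | a2, a3 | a3⟩ := h1 <;> obtain ⟨b1, b2 | b2, b3 | b3⟩ := h2 <;>
    obtain ⟨c1, c2 | c2, c3 | c3⟩ := h3 <;>
    simp [Sw, MulAut.mul_apply, a1, a2, a3, b1, b2, b3, c1, c2, c3, mul_assoc, z6_sq]

theorem Sw.pow {σ : MulAut A6} (h : Sw σ) (k : ℕ) : Sw (σ ^ (2 * k + 1)) := by
  induction k with
  | zero => simpa using h
  | succ k ih =>
    rw [show 2 * (k + 1) + 1 = 2 * k + 1 + 1 + 1 by ring, pow_succ, pow_succ]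
    exact ih.mul h h

theorem Sw.order {σ : MulAut A6} (h : Sw σ) (h4 : σ ^ 4 = 1) :
    (σ * MulAut.conj a6) ^ 4 = MulAut.conj z6 := by
  have k : ∀ y, σ * MulAut.conj y = MulAut.conj (σ y) * σ := fun y => MulEquiv.ext fun w => by simp
  have h1 : σ a6 * σ (σ a6) * (σ a6 * σ (σ a6)) = z6 := by
    obtain ⟨a1, a2 | a2, a3 | a3⟩ := h <;> simp only [a1, a2, a3, map_mul] <;> decide +kernel
  have h2 : σ (σ (σ a6 * σ (σ a6))) = σ a6 * σ (σ a6) := by
    generalize σ a6 * σ (σ a6) = r at *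
    have h3 : σ r = r ∨ σ r = r⁻¹ := by
      rcases cent_z6' r h1 with e | e <;>
        rcases cent_z6' (σ r) (by rw [← map_mul, h1, h.1]) with e' | e' <;> rw [e', e] <;> simp
    rcases h3 with e | e <;> simp [e]
  have h5 : (σ * MulAut.conj a6) ^ 2 = MulAut.conj (σ a6 * σ (σ a6)) * (σ * σ) := by
    calc _ = σ * MulAut.conj a6 * (σ * MulAut.conj a6) := pow_two _
      _ = MulAut.conj (σ a6) * (σ * MulAut.conj (σ a6)) * σ := by rw [k]; simp only [mul_assoc]
      _ = _ := by rw [k, map_mul]; simp only [mul_assoc]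
  rw [show 4 = 2 * 2 from rfl, pow_mul, h5]
  generalize σ a6 * σ (σ a6) = r at *
  calc _ = MulAut.conj r * (σ * (σ * MulAut.conj r)) * (σ * σ) := by rw [pow_two]; simp only [mul_assoc]
    _ = MulAut.conj r * (σ * MulAut.conj (σ r)) * (σ * (σ * σ)) := by rw [k r]; simp only [mul_assoc]
    _ = MulAut.conj r * MulAut.conj r * σ ^ 4 := by
      rw [k, h2]; simp only [pow_succ, pow_zero, one_mul, mul_assoc]
    _ = _ := by rw [h4, mul_one, ← map_mul, h1]

theorem threeCycle_of {K : Subgroup (MulAut A6)} (h : Cl K) (hK : ∀ a, MulAut.conj a ∈ K)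
    {τ : MulAut A6} (hτ : τ ∈ K) (c : A6) (hc : (c : Perm (Fin 6)).IsThreeCycle) :
    (τ c : Perm (Fin 6)).IsThreeCycle := by
  have o2 : ∀ y : A6, y * y = 1 → y ≠ 1 → orderOf y = 2 := fun y h1 h2 =>
    orderOf_eq_prime (by rwa [pow_two]) h2
  obtain ⟨n, hn⟩ := isConj_iff.1 (conj_z6 ((τ.orderOf_eq z6).trans (o2 z6 z6_sq (by decide +kernel))))
  obtain ⟨σ, hσ⟩ : ∃ σ, σ = MulAut.conj n * τ := ⟨_, rfl⟩
  have σK : σ ∈ K := hσ ▸ mul_mem (hK n) hτ
  have hz : σ z6 = z6 := by rw [hσ]; exact hn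
  suffices hh : (σ c : Perm (Fin 6)).IsThreeCycle by
    rw [hσ] at hh
    exact (cycleType_conj (σ := (τ c : Perm (Fin 6))) (τ := n)).symm.trans hh
  have key : ∀ y : A6, y * z6 = z6 * y → y * y = 1 → y ≠ 1 → y ≠ z6 →
      σ y = a6 ∨ σ y = a6 * z6 ∨ σ y = b6 ∨ σ y = b6 * z6 := fun y h1 h2 h3 h4 =>
    cent_z6 _ (by rw [← hz, ← map_mul, ← map_mul, h1]) (by rw [← map_mul, h2, map_one])
      (by simpa using h3) (by rw [← hz]; exact σ.injective.ne h4)
  by_cases ha : σ a6 = a6 ∨ σ a6 = a6 * z6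
  · have e : c6 * z6 * c6⁻¹ = a6 * z6 := by decide +kernel
    have e' : σ c6 * z6 * (σ c6)⁻¹ = σ a6 * z6 := by
      rw [← hz, ← map_inv, ← map_mul, ← map_mul, e, map_mul]
    have c3 : c6 ^ 3 = 1 := by decide +kernel
    have c1 : c6 ≠ 1 := by decide +kernel
    have := Fact.mk Nat.prime_three
    refine AltAut.isThreeCycle_map_six σ (y := c6) (orderOf_eq_prime c3 c1) ?_ c hc
    rw [norm_K1 _ (by rw [← map_pow, c3, map_one]) (by simpa using c1)
      (by rcases ha with ha | ha <;> rw [e', ha] <;> decide +kernel)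
      (by rcases ha with ha | ha <;> rw [e', ha] <;> decide +kernel),
      norm_K1 c6 c3 c1 (by decide +kernel) (by decide +kernel)]
  exfalso
  have ha' : σ a6 = b6 ∨ σ a6 = b6 * z6 := by
    have := key a6 (by decide +kernel) (by decide +kernel) (by decide +kernel) (by decide +kernel)
    tauto
  have hs : Sw σ := ⟨hz, ha', by
    have h1 : σ b6 ≠ σ a6 := σ.injective.ne (by decide +kernel)
    have h2 : σ b6 ≠ σ a6 * z6 := by
      rw [← hz, ← map_mul]; exact σ.injective.ne (by decide +kernel)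
    rcases key b6 (by decide +kernel) (by decide +kernel) (by decide +kernel) (by decide +kernel)
      with e | e | e | e
    · exact Or.inl e
    · exact Or.inr e
    · rcases ha' with e' | e'
      · exact absurd (e.trans e'.symm) h1
      · exact absurd (by rw [e, e', mul_assoc, z6_sq, mul_one]) h2
    · rcases ha' with e' | e'
      · exact absurd (by rw [e, e']) h2
      · exact absurd (e.trans e'.symm) h1⟩
  have h1 := (hs.pow 7).order (by
    have := congrArg Subtype.val (h.pow_sixty ⟨σ, σK⟩)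
    rw [SubmonoidClass.coe_pow] at this
    rw [← pow_mul]; exact this)
  have h2 := congrArg Subtype.val (h.pow_four (k := 3)
    (x := ⟨_, mul_mem (pow_mem σK (2 * 7 + 1)) (hK a6)⟩) (Subtype.ext (by
      change (σ ^ (2 * 7 + 1) * MulAut.conj a6) ^ (4 * 2) = 1
      rw [pow_mul, h1, pow_two, ← map_mul, z6_sq, map_one])))
  change (σ ^ (2 * 7 + 1) * MulAut.conj a6) ^ 4 = 1 at h2
  rw [h1] at h2
  exact absurd (DFunLike.congr_fun h2 c6) (by change ¬ z6 * c6 * z6⁻¹ = c6; decide +kernel)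

variable {G : Type*} [Group G] [Finite G] {N : Subgroup G}

theorem of_hom {n : ℕ} (e : N ≃* alternatingGroup (Fin (n + 2))) (f : G →* Perm (Fin (n + 2)))
    (hf : Function.Injective f) (h : ∀ a : N, f a = e a) :
    Nonempty (G ≃* alternatingGroup (Fin (n + 2))) ∨ Nonempty (G ≃* Perm (Fin (n + 2))) := by
  have h1 : alternatingGroup (Fin (n + 2)) ≤ f.range := fun a ha =>
    ⟨e.symm ⟨a, ha⟩, by rw [h, MulEquiv.apply_symm_apply]⟩
  have h2 := index_dvd_of_le h1
  rw [alternatingGroup.index_eq_two] at h2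
  rcases (Nat.dvd_prime Nat.prime_two).1 h2 with e | e
  · exact Or.inr ⟨MulEquiv.ofBijective f ⟨hf, MonoidHom.range_eq_top.1 (index_eq_one.1 e)⟩⟩
  · exact Or.inl ⟨(MonoidHom.ofInjective hf).trans
      (MulEquiv.subgroupCongr (eq_alternatingGroup_of_index_eq_two e))⟩

theorem almost5 [N.Normal] (e : N ≃* A5) (hC : centralizer (N : Set G) = ⊥) :
    Nonempty (G ≃* A5) ∨ Nonempty (G ≃* Perm (Fin 5)) := by
  obtain ⟨f, h1, h2, -⟩ := AltAut.exists_hom_perm_of_ne_six (by simp) (by simp) e hC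
  exact of_hom e f h1 h2

theorem almost6 (h : Cl G) [N.Normal] (e : N ≃* A6) (hC : centralizer (N : Set G) = ⊥) :
    Nonempty (G ≃* A6) ∨ Nonempty (G ≃* Perm (Fin 6)) := by
  obtain ⟨f, h1, h2, -⟩ := AltAut.exists_hom_perm (by simp) e hC fun g =>
    threeCycle_of (K := (AltAut.indAut e).range)
      (h.of_surj _ (MonoidHom.rangeRestrict_surjective _))
      (fun a => ⟨e.symm a, by
        rw [AltAut.indAut_coe, MulEquiv.apply_symm_apply]; exact MulAut.conjNormal_val⟩) ⟨g, rfl⟩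
  exact of_hom e f h1 h2

end CfsgLib.Ord6
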