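import Cfsg.Agent.Lib.Ord6.Alm
import Cfsg.Agent.Lib.Core.Fitting

/-! The structure of the non-solvable groups without elements of order greater than six. -/

set_option autoImplicit false
set_option linter.unusedSectionVars false

namespace CfsgLib.Ord6

open Cfsg Subgroup

universe u

variable {G : Type*} [Group G] [Finite G]

omit [Finite G] in
theorem comm_of_sq {a b : G} (ha : a * a = 1) (hb : b * b = 1) (h : a * b * (a * b) = 1) :
    a * b = b * a := by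
  rw [eq_inv_of_mul_eq_one_left h, mul_inv_rev, inv_eq_of_mul_eq_one_right ha,
    inv_eq_of_mul_eq_one_right hb]

/-- every non-trivial normal subgroup has order divisible by five -/
def P5 (L : Type*) [Group L] : Prop := ∀ N : Subgroup L, N.Normal → N ≠ ⊥ → 5 ∣ Nat.card N

theorem p5_simple {L : Type*} [Group L] (hs : IsSimpleGroup L) (h : 5 ∣ Nat.card L) : P5 L :=
  fun N hN h1 => by rwa [hN.eq_bot_or_eq_top.resolve_left h1, card_top]

theorem p5_A5 : P5 A5 := p5_simple simple_A5 (by rw [card_A5]; norm_num)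

theorem p5_A6 : P5 A6 := p5_simple simple_A6 (by rw [card_A6]; norm_num)

theorem p5_S5 : P5 (Equiv.Perm (Fin 5)) := fun N _ h1 => dvd_trans (by rw [card_A5]; norm_num)
  (card_dvd_of_le (Equiv.Perm.alternatingGroup_le_of_normal (by simp) ((nontrivial_iff_ne_bot N).2 h1)))

theorem p5_S6 : P5 (Equiv.Perm (Fin 6)) := fun N _ h1 => dvd_trans (by rw [card_A6]; norm_num)
  (card_dvd_of_le (Equiv.Perm.alternatingGroup_le_of_normal (by simp) ((nontrivial_iff_ne_bot N).2 h1)))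

namespace Cl

variable (h : Cl G)
include h

theorem lift {L : Type*} [Group L] (π : G →* L) (hπ : Function.Surjective π) {s : L} {n : ℕ}
    (hn : n = 3 ∨ n = 4 ∨ n = 5) (ho : s ^ n = 1) : ∃ g, π g = s ∧ g ^ n = 1 := by
  obtain ⟨g, rfl⟩ := hπ s
  have k : ∀ a : ℕ, π (g ^ (n * a + 1)) = π g := fun a => by
    rw [map_pow, pow_succ, pow_mul, ho, one_pow, one_mul]
  have h1 := h.pow_sixty g
  rcases hn with rfl | rfl | rfl
  · exact ⟨_, k 13, by rw [← pow_mul, show (3 * 13 + 1) * 3 = 60 * 2 from rfl, pow_mul, h1, one_pow]⟩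
  · exact ⟨_, k 11, by rw [← pow_mul, show (4 * 11 + 1) * 4 = 60 * 3 from rfl, pow_mul, h1, one_pow]⟩
  · exact ⟨_, k 7, by rw [← pow_mul, show (5 * 7 + 1) * 5 = 60 * 3 from rfl, pow_mul, h1, one_pow]⟩

theorem fpf5 {Q : Subgroup G} (hQ : IsPGroup 2 Q) {f : G} (hf : 5 ∣ orderOf f) :
    ∀ q ∈ Q, f * q = q * f → q = 1 := fun q hq e => by
  obtain ⟨k, hk⟩ := hQ ⟨q, hq⟩
  exact h.five_two hf e (congrArg Subtype.val hk)

/-- a dihedral group of order ten above an involution -/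
theorem d10 (π : G →* A5) (hπ : Function.Surjective π) (hQ : IsPGroup 2 π.ker) {u : G}
    (h1 : π u * π u = 1) (h2 : π u ≠ 1) :
    ∃ f q, orderOf f = 5 ∧ π q = 1 ∧ q * u * f * (q * u)⁻¹ = f⁻¹ ∧ q * u * (q * u) = 1 := by
  obtain ⟨f, f5, f1, e⟩ := a5_inv _ h1 h2
  obtain ⟨f, rfl, hf⟩ := h.lift π hπ (.inr (.inr rfl)) f5
  have := Fact.mk Nat.prime_five
  have o5 : orderOf f = 5 := orderOf_eq_prime hf fun e => f1 (by rw [e, map_one])
  obtain ⟨q, hq, e2⟩ := fpf_surj (Q := π.ker) (f := f⁻¹) (fun q hq => (π.normal_ker).conj_mem q hq _)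
    (h.fpf5 hQ (by rw [orderOf_inv, o5])) (w := u * f * u⁻¹ * f) (by simp [MonoidHom.mem_ker, e])
  have e3 : q * u * f * (q * u)⁻¹ = f⁻¹ := by
    calc _ = q * (u * f * u⁻¹ * f) * f⁻¹ * q⁻¹ := by group
      _ = _ := by rw [e2]; group
  refine ⟨f, q, o5, hq, e3, h.fpf5 hQ o5.symm.dvd _ ?_ ?_⟩
  · rw [MonoidHom.mem_ker, map_mul, map_mul, MonoidHom.mem_ker.1 hq, one_mul, h1]
  · generalize q * u = t at *
    calc f * (t * t) = (t * f * t⁻¹)⁻¹ * (t * t) := by rw [e3, inv_inv]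
      _ = t * f⁻¹ * t := by group
      _ = t * (t * f * t⁻¹) * t := by rw [e3]
      _ = _ := by group

/-- a 2-group extended by `A₅` is elementary abelian: the inductive step -/
theorem elem (π : G →* A5) (hπ : Function.Surjective π) (N : Subgroup G) [hN : N.Normal]
    (h1 : ∀ n ∈ N, n * n = 1) (hc : ∀ q ∈ π.ker, ∀ n ∈ N, q * n = n * q)
    (hs : ∀ q ∈ π.ker, q * q ∈ N) : ∀ q ∈ π.ker, q * q = 1 := by
  have hQ : IsPGroup 2 π.ker := fun q => ⟨2, Subtype.ext (by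
    rw [SubmonoidClass.coe_pow, show 2 ^ 2 = 2 * 2 from rfl, pow_mul, pow_two, pow_two]
    exact h1 _ (hs _ q.2))⟩
  obtain ⟨u, u2, u1⟩ := a5_ex
  obtain ⟨u, rfl⟩ := hπ u
  obtain ⟨f, q, o5, hq, tf, tt⟩ := h.d10 π hπ hQ u2 u1
  have t2 : π (q * u) * π (q * u) = 1 := by rw [← map_mul, tt, map_one]
  generalize q * u = t at tf tt t2
  clear hq u1 u2 q u
  generalize hK : π.ker = Q at *
  have nQ : Q.Normal := hK ▸ π.normal_ker
  have cj : ∀ g, ∀ q ∈ Q, g * q * g⁻¹ ∈ Q := fun g q hq => nQ.conj_mem q hq g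
  let ρ := QuotientGroup.mk' N
  have sq : ∀ q ∈ Q, ρ q * ρ q = 1 := fun q hq => by
    rw [← map_mul]; exact (QuotientGroup.eq_one_iff _).2 (hs q hq)
  have cm : ∀ a ∈ Q, ∀ b ∈ Q, ρ a * ρ b = ρ b * ρ a := fun a ha b hb =>
    comm_of_sq (sq a ha) (sq b hb) (by rw [← map_mul]; exact sq _ (mul_mem ha hb))
  have ex : ∀ {x y}, ρ y = ρ x → ∃ n ∈ N, x = y * n := fun {x y} e =>
    ⟨y⁻¹ * x, QuotientGroup.eq.1 e, by group⟩
  have sqN : ∀ {x y}, ρ y = ρ x → y ∈ Q → y * y = 1 → x * x = 1 := fun e hy y2 => by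
    obtain ⟨n, hn, rfl⟩ := ex e
    rw [mul_assoc, ← mul_assoc n, ← hc _ hy n hn, mul_assoc, h1 n hn, mul_one, y2]
  let D : G → G := fun q => t * q * t⁻¹ * q
  have DQ : ∀ q ∈ Q, D q ∈ Q := fun q hq => mul_mem (cj t q hq) hq
  have D1 : ∀ q ∈ Q, D q * D q = 1 := fun q hq => by
    have e : D q = (t * q) ^ 2 := by
      simp only [D]; rw [inv_eq_of_mul_eq_one_right tt, pow_two, mul_assoc]
    obtain ⟨k, hk⟩ := hQ ⟨D q, DQ q hq⟩
    have := h.pow_four (x := t * q) (k := k + 1) (by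
      rw [pow_succ', pow_mul, ← e]; exact congrArg Subtype.val hk)
    rw [e, ← pow_add, this]
  have D2 : ∀ a ∈ Q, ∀ b ∈ Q, D a * D b = D b * D a := fun a ha b hb => by
    refine comm_of_sq (D1 a ha) (D1 b hb) (sqN (y := D (a * b)) ?_ (DQ _ (mul_mem ha hb))
      (D1 _ (mul_mem ha hb)))
    calc ρ (D (a * b)) = ρ (t * a * t⁻¹) * (ρ (t * b * t⁻¹) * ρ a) * ρ b := by
          simp only [D, map_mul, map_inv]; group
      _ = _ := by rw [cm _ (cj t b hb) a ha]; simp only [D, map_mul, map_inv]; group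
  have ft : f * t * f⁻¹ = f * f * t := by
    calc _ = f * (t * f * t⁻¹)⁻¹ * t := by group
      _ = _ := by rw [tf, inv_inv]
  have tf' : t * f = f⁻¹ * t := mul_inv_eq_iff_eq_mul.1 tf
  have tf2 : t * f⁻¹ = f * t := by
    calc _ = (t * f * t⁻¹)⁻¹ * t := by group
      _ = _ := by rw [tf, inv_inv]
  have D3 : ∀ a ∈ Q, ∀ b ∈ Q, f * (D a * (f * D b * f⁻¹) * (D a)⁻¹ * (f * D b * f⁻¹)⁻¹) * f⁻¹ =
      (D b * (f * D a * f⁻¹) * (D b)⁻¹ * (f * D a * f⁻¹)⁻¹)⁻¹ := fun a ha b hb => by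
    have hb' := mul_mem (cj f b hb) (cj f⁻¹ b hb)
    obtain ⟨n, hn, e⟩ := ex (x := f * (f * D b * f⁻¹) * f⁻¹)
      (y := f * D (f * b * f⁻¹ * (f⁻¹ * b * f⁻¹⁻¹)) * f⁻¹ * D b) (by
        have e1 : f * D (f * b * f⁻¹ * (f⁻¹ * b * f⁻¹⁻¹)) * f⁻¹ = t * b * t⁻¹ *
            (f * (f * (t * b * t⁻¹) * f⁻¹) * f⁻¹) * (f * (f * b * f⁻¹) * f⁻¹) * b := by
          calc _ = f * (t * f) * b * (f * (t * f))⁻¹ * (f * (t * f⁻¹) * b * (f * (t * f⁻¹))⁻¹) *
                (f * (f * b * f⁻¹) * f⁻¹) * b := by simp only [D]; group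
            _ = _ := by rw [tf', tf2]; group
        have e2 : f * (f * D b * f⁻¹) * f⁻¹ =
            (f * (f * (t * b * t⁻¹) * f⁻¹) * f⁻¹) * (f * (f * b * f⁻¹) * f⁻¹) := by
          simp only [D]; group
        have m1 := cj t b hb
        have m2 := mul_mem (cj f _ (cj f _ m1)) (cj f _ (cj f b hb))
        rw [e1, e2, mul_assoc (t * b * t⁻¹)]
        simp only [D]
        generalize f * (f * (t * b * t⁻¹) * f⁻¹) * f⁻¹ * (f * (f * b * f⁻¹) * f⁻¹) = X at *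
        generalize t * b * t⁻¹ = Y at *
        simp only [map_mul]
        rw [cm Y m1 X m2, mul_assoc, mul_assoc, ← map_mul ρ Y b, ← mul_assoc (ρ Y), ← map_mul,
          sq _ (mul_mem m1 hb), mul_one])
    have c1 : f * D a * f⁻¹ * (f * D (f * b * f⁻¹ * (f⁻¹ * b * f⁻¹⁻¹)) * f⁻¹) =
        f * D (f * b * f⁻¹ * (f⁻¹ * b * f⁻¹⁻¹)) * f⁻¹ * (f * D a * f⁻¹) := by
      rw [conj_mul, conj_mul, D2 a ha _ hb']
    have m1 := cj f _ (DQ a ha)
    have m2 := cj f _ (DQ _ hb')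
    have m3 := DQ b hb
    have e3 : f * (D a * (f * D b * f⁻¹) * (D a)⁻¹ * (f * D b * f⁻¹)⁻¹) * f⁻¹ = f * D a * f⁻¹ *
      (f * (f * D b * f⁻¹) * f⁻¹) * (f * D a * f⁻¹)⁻¹ * (f * (f * D b * f⁻¹) * f⁻¹)⁻¹ := by group
    rw [e3, e]
    generalize f * D (f * b * f⁻¹ * (f⁻¹ * b * f⁻¹⁻¹)) * f⁻¹ = w at *
    generalize f * D a * f⁻¹ = x at *
    generalize D b = v at *
    have m4 : x * v * x⁻¹ * v⁻¹ ∈ N := (QuotientGroup.eq_one_iff _).1 (by
      change ρ _ = 1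
      rw [map_mul, map_mul, map_mul, cm x m1 v m3, map_inv, map_inv]; group)
    calc _ = x * w * v * (n * x⁻¹) * n⁻¹ * v⁻¹ * w⁻¹ := by group
      _ = w * (x * v * x⁻¹ * v⁻¹) * w⁻¹ := by rw [← hc _ (inv_mem m1) n hn, c1]; group
      _ = _ := by rw [hc w m2 _ m4]; group
  have o2 : 5 ∣ orderOf (f * f) := by
    rw [← pow_two, (show (orderOf f).Coprime 2 by rw [o5]; norm_num).orderOf_pow, o5]
  have D4 : ∀ a ∈ Q, ∀ b ∈ Q, D a * (f * D b * f⁻¹) = f * D b * f⁻¹ * D a := fun a ha b hb => by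
    have e := h.fpf5 hQ o2 (D a * (f * D b * f⁻¹) * (D a)⁻¹ * (f * D b * f⁻¹)⁻¹)
      (mul_mem (cj _ _ (cj f _ (DQ b hb))) (inv_mem (cj f _ (DQ b hb)))) (by
        rw [← mul_inv_eq_iff_eq_mul, show ∀ x, f * f * x * (f * f)⁻¹ = f * (f * x * f⁻¹) * f⁻¹ from
          fun x => by group, D3 a ha b hb, ← conj_inv, D3 b hb a ha, inv_inv])
    rwa [mul_inv_eq_one, mul_inv_eq_iff_eq_mul] at e
  intro a ha
  obtain ⟨w, hw, rfl⟩ := fpf_surj (cj (f * f)) (h.fpf5 hQ o2) ha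
  have hx := cj t⁻¹ w hw
  have hy := cj f⁻¹ _ hx
  refine sqN (y := D (t⁻¹ * w * t⁻¹⁻¹) * (f * D (f⁻¹ * (t⁻¹ * w * t⁻¹⁻¹) * f⁻¹⁻¹) * f⁻¹)) ?_
    (mul_mem (DQ _ hx) (cj f _ (DQ _ hy))) ?_
  · have e1 : D (t⁻¹ * w * t⁻¹⁻¹) = w * (t⁻¹ * w * t⁻¹⁻¹) := by simp only [D]; group
    have e2 : f * D (f⁻¹ * (t⁻¹ * w * t⁻¹⁻¹) * f⁻¹⁻¹) * f⁻¹ =
        f * f * w * (f * f)⁻¹ * (t⁻¹ * w * t⁻¹⁻¹) := by
      calc _ = f * t * f⁻¹ * (t⁻¹ * w * t) * (f * t * f⁻¹)⁻¹ * (t⁻¹ * w * t⁻¹⁻¹) := by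
            simp only [D]; group
        _ = _ := by rw [ft]; group
    have m := cj (f * f) w hw
    rw [e1, e2]
    generalize f * f * w * (f * f)⁻¹ = X at *
    generalize t⁻¹ * w * t⁻¹⁻¹ = Y at *
    simp only [map_mul, map_inv]
    rw [← cm Y hx X m, mul_assoc, ← mul_assoc (ρ Y), sq Y hx, one_mul,
      inv_eq_of_mul_eq_one_right (sq w hw)]
  · have e := D4 _ hx _ hy
    have e2 : f * D (f⁻¹ * (t⁻¹ * w * t⁻¹⁻¹) * f⁻¹⁻¹) * f⁻¹ *
        (f * D (f⁻¹ * (t⁻¹ * w * t⁻¹⁻¹) * f⁻¹⁻¹) * f⁻¹) = 1 := by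
      rw [conj_mul, D1 _ hy, mul_one, mul_inv_cancel]
    have e3 := D1 _ hx
    generalize f * D (f⁻¹ * (t⁻¹ * w * t⁻¹⁻¹) * f⁻¹⁻¹) * f⁻¹ = X at *
    generalize D (t⁻¹ * w * t⁻¹⁻¹) = Y at *
    rw [mul_assoc, ← mul_assoc X, ← e, mul_assoc, e2, mul_one, e3]

theorem no_ext {L : Type*} [Group L] (π : G →* L) (hπ : Function.Surjective π) {V : Subgroup G}
    [hN : V.Normal] {p : ℕ} (hp : p.Prime) (hV : IsElementaryAbelian p V) (V1 : V ≠ ⊥)
    (hk : ∀ g, π g = 1 → ∀ v ∈ V, g * v = v * g) (hk' : ∀ v ∈ V, π v = 1) {m q : ℕ}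
    (fr : Fr L m q) (h5 : P5 L) (hq : q.Prime) (hqp : q ≠ p) (hm : m + 1 = 3 ∨ m + 1 = 4 ∨ m + 1 = 5)
    (h6 : 6 < (m + 1) * p) : False := by
  have := Fact.mk hp
  have := Fact.mk hq
  have : Finite L := Finite.of_surjective π hπ
  obtain ⟨F, s, f1, f2, f3, f4, f5⟩ := fr
  obtain ⟨s, rfl, hs⟩ := h.lift π hπ hm (f3 ▸ pow_orderOf_eq_one s)
  obtain ⟨k, hk2⟩ := IsPGroup.iff_card.1 (Core.isPGroup_of_forall_pow_eq_one f4)
  have key := fun g hg v hv => h.maz1 π hπ hp hV hk hk' F s m f1 f2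
    (hk2 ▸ ((Nat.coprime_primes hq hp).2 hqp).pow_left k) f3 (hs ▸ one_mem V) h6 (g := g) hg (v := v) hv
  obtain ⟨v, hv, v1⟩ := (V.bot_or_exists_ne_one).resolve_left V1
  obtain ⟨f, hf, e1⟩ := (F.bot_or_exists_ne_one).resolve_left f5
  obtain ⟨f, rfl⟩ := hπ f
  have ov : orderOf v = p := orderOf_eq_prime (hV.2 v hv) v1
  have hC := h5 ((centralizer (V : Set G)).map π) (Normal.map inferInstance π hπ)
    fun e => e1 (mem_bot.1 (e ▸ mem_map_of_mem π fun w hw => (key f hf w hw).symm))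
  obtain ⟨x, hx, ox⟩ := Core.exists_mem_orderOf_eq_of_dvd_card Nat.prime_five
    (hC.trans (card_map_dvd _ π))
  have h1 := orderOf_dvd_of_pow_eq_one (h.five ox.symm.dvd (hx v hv).symm)
  rw [ov, Nat.prime_dvd_prime_iff_eq hp Nat.prime_five] at h1
  subst h1
  have h2 := orderOf_dvd_of_pow_eq_one (h.five ov.symm.dvd (key f hf v hv).symm)
  have h3 := (orderOf_map_dvd π f).trans h2
  rw [orderOf_eq_prime (f4 _ hf) e1, Nat.prime_dvd_prime_iff_eq hq Nat.prime_five] at h3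
  exact hqp h3

theorem no_odd {L : Type*} [Group L] {V : Subgroup G} [hN : V.Normal] (π : G ⧸ V →* L)
    (hπ : Function.Surjective π) {p : ℕ} (hp : p.Prime) (hV : IsElementaryAbelian p V) (V1 : V ≠ ⊥)
    (hk : ∀ g, π g = 1 → g * g = 1) (fr : Fr L 2 2) (h5 : P5 L) (p2 : p ≠ 2) : False := by
  have : Finite L := Finite.of_surjective π hπ
  have := Fact.mk Nat.prime_five
  have := Fact.mk Nat.prime_two
  have p3 := hp.two_le
  have hρ := QuotientGroup.mk'_surjective V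
  have hV1 : ∀ v ∈ V, QuotientGroup.mk' V v = 1 := fun v hv => (QuotientGroup.eq_one_iff v).2 hv
  refine h.no_ext (π.comp (QuotientGroup.mk' V)) (hπ.comp hρ) hp hV V1 (fun g hg v hv => ?_)
    (fun v hv => by rw [MonoidHom.comp_apply, hV1 v hv, map_one]) fr h5 Nat.prime_two p2.symm
    (.inl rfl) (by omega)
  obtain ⟨F, -, -, -, -, -, f5⟩ := fr
  have d5 := h5 ⊤ inferInstance fun e => f5 (eq_bot_iff.2 (e ▸ le_top))
  rw [card_top] at d5
  obtain ⟨s, o5⟩ := exists_prime_orderOf_dvd_card' 5 (d5.trans (card_dvd_of_surjective π hπ))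
  obtain ⟨s, rfl, hs⟩ := h.lift _ hρ (.inr (.inr rfl)) (o5 ▸ pow_orderOf_eq_one s)
  have hQ : IsPGroup 2 π.ker := Core.isPGroup_of_forall_pow_eq_one fun x hx => by
    rw [pow_two, hk x hx]
  obtain ⟨k, hk2⟩ := IsPGroup.iff_card.1 hQ
  refine h.maz1 _ hρ hp hV (fun g hg v hv => have := hV.1
    setLike_mul_comm ((QuotientGroup.eq_one_iff g).1 hg) hv) hV1 π.ker s 4
    (fun f hf => π.normal_ker.conj_mem f hf _) (fun i hi f hf e => ?_)
    (hk2 ▸ ((Nat.coprime_primes Nat.prime_two hp).2 p2.symm).pow_left k) o5 (hs ▸ one_mem V)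
    (by omega) hg hv
  refine (h.of_surj _ hρ).fpf5 hQ ?_ f hf e.symm
  rw [Nat.Coprime.orderOf_pow, o5]
  rw [o5]
  exact Nat.coprime_of_lt_prime (by omega) (by omega) Nat.prime_five

end Cl

theorem EA.of_equiv (e : G ≃* A5) : EA G :=
  ⟨e.toMonoidHom, e.surjective, fun a ha => by rw [(map_eq_one_iff _ e.injective).1 ha, mul_one]⟩

theorem st_aux (n : ℕ) : ∀ (G : Type u) [Group G] [Finite G], Nat.card G ≤ n → Cl G →
    (∀ (A : Type u) [Group A] [Finite A], Nat.card A ≤ Nat.card G → Cl A → IsSimpleGroup A →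
      ¬ IsMulCommutative A → Sm A) → ST G := by
  induction n with
  | zero => intro A _ _ e; exact absurd e (not_le.2 Nat.card_pos)
  | succ n ih =>
  intro G _ _ hn h hS
  by_cases hs : Group.IsSolvable G
  · exact Or.inl hs
  have := Fact.mk Nat.prime_two
  have : Nontrivial G := by
    by_contra e
    have := not_nontrivial_iff_subsingleton.1 e
    exact hs inferInstance
  obtain ⟨N, hN, N1, -, hmin⟩ := Core.exists_minimal_normal_le (K := (⊤ : Subgroup G)) top_ne_bot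
  have hc := card_eq_card_quotient_mul_card_subgroup N
  by_cases hNs : Group.IsSolvable N
  · obtain ⟨p, hp, hV⟩ := Core.isElementaryAbelian_of_minimal_normal N1 hmin
    have hρ := QuotientGroup.mk'_surjective N
    have h1 := (one_lt_card_iff_ne_bot N).2 N1
    have h2 : Nat.card (G ⧸ N) < Nat.card G := by
      rw [hc]; exact (Nat.lt_mul_iff_one_lt_right Nat.card_pos).2 h1
    have key : ∀ {L : Type} [Group L] (e : G ⧸ N ≃* L) {m q : ℕ}, Fr L 2 2 → Fr L 3 q → P5 L →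
        q.Prime → q ≠ 2 → False := fun e m q f1 f2 h5 hq q2 => by
      by_cases p2 : p = 2
      · subst p2
        exact h.no_ext (e.toMonoidHom.comp (QuotientGroup.mk' N)) (e.surjective.comp hρ) hp hV N1
          (fun g hg v hv => have := hV.1; setLike_mul_comm ((QuotientGroup.eq_one_iff g).1
            ((map_eq_one_iff _ e.injective).1 hg)) hv)
          (fun v hv => (map_eq_one_iff _ e.injective).2 ((QuotientGroup.eq_one_iff v).2 hv))
          f2 h5 hq q2 (.inr (.inl rfl)) (by norm_num)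
      · exact h.no_odd e.toMonoidHom e.surjective hp hV N1
          (fun g hg => by rw [(map_eq_one_iff _ e.injective).1 hg, mul_one]) f1 h5 p2
    rcases ih (G ⧸ N) (by omega) (h.of_surj _ hρ) fun A _ _ e => hS A (by omega) with
      e | ⟨π, hπ, hk⟩ | ⟨⟨e⟩⟩ | ⟨⟨e⟩⟩ | ⟨⟨e⟩⟩
    · exact absurd (Group.isSolvable_of_ker_le_range N.subtype (QuotientGroup.mk' N) (by simp)) hs
    · by_cases p2 : p = 2
      · subst p2
        have h3 : ∀ q ∈ (π.comp (QuotientGroup.mk' N)).ker, q * q ∈ N := fun q hq =>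
          (QuotientGroup.eq_one_iff _).1 (hk _ hq)
        have h4 : ∀ n ∈ N, n * n = 1 := fun n hn => by rw [← pow_two, hV.2 n hn]
        have hQ : IsPGroup 2 (π.comp (QuotientGroup.mk' N)).ker := fun q => ⟨2, Subtype.ext (by
          rw [SubmonoidClass.coe_pow, show 2 ^ 2 = 2 * 2 from rfl, pow_mul, pow_two, pow_two]
          exact h4 _ (h3 _ q.2))⟩
        have := hQ.isNilpotent
        exact Or.inr (Or.inl ⟨_, hπ.comp hρ, h.elem _ (hπ.comp hρ) N h4 (fun q hq n hn =>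
          (Core.le_centralizer_of_minimal_normal_of_isNilpotent hmin hq n hn).symm) h3⟩)
      · exact (h.no_odd π hπ hp hV N1 hk fr_A5 p5_A5 p2).elim
    · exact (key e (m := 0) (fr_A5.map _ (subtype_injective _)) fr_S5 p5_S5 Nat.prime_five (by norm_num)).elim
    · exact (key e (m := 0) fr_A6 fr_A6' p5_A6 Nat.prime_three (by norm_num)).elim
    · exact (key e (m := 0) (fr_A6.map _ (subtype_injective _)) (fr_A6'.map _ (subtype_injective _))
        p5_S6 Nat.prime_three (by norm_num)).elim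
  by_cases hT : N = ⊤
  · subst hT
    rcases hS G le_rfl h ⟨fun M hM => hmin M hM le_top⟩
      (fun e => hs (Group.isSolvable_of_comm e.1.1)) with ⟨⟨e⟩⟩ | e
    · exact Or.inr (Or.inl (EA.of_equiv e))
    · exact Or.inr (Or.inr (Or.inr (Or.inl e)))
  have h2 : Nat.card N < Nat.card G := by
    rw [← card_top (G := G)]
    exact (card_le_of_le le_top).lt_of_ne fun e => hT (eq_of_le_of_card_ge le_top e.ge)
  have hC : ∀ {L : Type} [Group L], N ≃* L → 10 ∣ Nat.card L → centralizer (N : Set G) = ⊥ :=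
    fun e h10 => eq_bot_iff.2 fun c hc => by
      rw [← Nat.card_congr e.toEquiv] at h10
      obtain ⟨f, hf, o5⟩ := Core.exists_mem_orderOf_eq_of_dvd_card Nat.prime_five
        (dvd_trans (by norm_num) h10)
      obtain ⟨t, ht, o2⟩ := Core.exists_mem_orderOf_eq_of_dvd_card Nat.prime_two
        (dvd_trans (by norm_num) h10)
      have := Fact.mk Nat.prime_five
      by_contra c1
      have := h.comm (hc t ht) o2.symm.dvd (orderOf_eq_prime (h.five o5.symm.dvd (hc f hf)) c1).symm.dvd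
        (by norm_num)
      omega
  have hP : ∀ n, N ≃* Equiv.Perm (Fin (n + 2)) → False := fun n e => by
    rcases hmin ⁅N, N⁆ inferInstance (commutator_le_left N N) with e1 | e1
    · exact hNs (Group.isSolvable_of_comm (commutator_self_eq_bot_iff.1 e1).1.1)
    · have e2 : _root_.commutator N = ⊤ := map_injective N.subtype_injective (by
        rw [map_subtype_commutator, e1, ← MonoidHom.range_eq_map, range_subtype])
      have := Abelianization.commutator_subset_ker (Equiv.Perm.sign.comp e.toMonoidHom)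
        (e2 ▸ mem_top (e.symm (Equiv.swap 0 1)))
      simp [MonoidHom.mem_ker] at this
  rcases ih N (by omega) (h.sub N) fun A _ _ e => hS A (by omega) with
      e | ⟨π, hπ, hk⟩ | ⟨⟨e⟩⟩ | ⟨⟨e⟩⟩ | ⟨⟨e⟩⟩
  · exact absurd e hNs
  · have h3 : pCore 2 N = ⊥ := by
      rcases hmin _ (Core.map_pCore_normal (p := 2) N) (map_subtype_le _) with e | e
      · exact (map_eq_bot_iff_of_injective _ N.subtype_injective).1 e
      · have := ((Core.isPGroup_pCore 2 N).map N.subtype).isNilpotent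
        rw [e] at this
        exact (hNs inferInstance).elim
    have h4 : π.ker = ⊥ := eq_bot_iff.2 (h3 ▸ Core.le_pCore
      (Core.isPGroup_of_forall_pow_eq_one fun x hx => by rw [pow_two, hk x hx]))
    let e := MulEquiv.ofBijective π ⟨(MonoidHom.ker_eq_bot_iff π).1 h4, hπ⟩
    rcases almost5 e (hC e (by rw [card_A5]; norm_num)) with ⟨⟨e⟩⟩ | e
    · exact Or.inr (Or.inl (EA.of_equiv e))
    · exact Or.inr (Or.inr (Or.inl e))
  · exact (hP 3 e).elim
  · exact Or.inr (Or.inr (Or.inr (almost6 h e (hC e (by rw [card_A6]; norm_num)))))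
  · exact (hP 4 e).elim

theorem st_of {G : Type u} [Group G] [Finite G] (h : Cl G)
    (hS : ∀ (A : Type u) [Group A] [Finite A], Nat.card A ≤ Nat.card G → Cl A → IsSimpleGroup A →
      ¬ IsMulCommutative A → Sm A) : ST G := st_aux _ G le_rfl h hS

end CfsgLib.Ord6
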